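import Cfsg.Agent.Lib.CoprimeHyperplane
import Cfsg.Agent.S0025

/-!
# Coprime inequality for the fixed points of the hyperplanes (Brauer–Wielandt)

TEAM PSQ (S4844), piece PS-3a. `A` is an abelian group of exponent `p` acting on the `q`-group `R`; `D ≤ A` acts
trivially; `X i` are subgroups of `A`, among them all subgroups of index `p` which contain `D`. Then
`|R| |C_R(A)| ^ k ≤ ∏ |C_R(X i)|`, with `k + 1` the number of indices.
-/

set_option autoImplicit false

namespace Cfsg.Agent.H244.PSq

open Subgroup Cfsg.Agent.Lib.CoprimeHyperplane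

universe u

section Abs

variable {A : Type*} [CommGroup A] {R : Type u} [Group R] (φ : A →* MulAut R)

/-- The restriction of an action to an invariant subgroup. -/
def restr (N : Subgroup R) (hN : ∀ a, ∀ x ∈ N, φ a x ∈ N) : A →* MulAut N where
  toFun a :=
    { toFun := fun x => ⟨φ a x, hN a x x.2⟩
      invFun := fun x => ⟨φ a⁻¹ x, hN a⁻¹ x x.2⟩
      left_inv := fun x => by
        apply Subtype.ext
        show φ a⁻¹ (φ a x) = x
        rw [← MulAut.mul_apply, ← map_mul, inv_mul_cancel, map_one, MulAut.one_apply]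
      right_inv := fun x => by
        apply Subtype.ext
        show φ a (φ a⁻¹ x) = x
        rw [← MulAut.mul_apply, ← map_mul, mul_inv_cancel, map_one, MulAut.one_apply]
      map_mul' := fun x y => by
        apply Subtype.ext
        show φ a ((x : R) * y) = φ a x * φ a y
        rw [map_mul] }
  map_one' := by
    ext x
    show φ 1 (x : R) = x
    rw [map_one, MulAut.one_apply]
  map_mul' a b := by
    ext x
    show φ (a * b) (x : R) = φ a (φ b x)
    rw [map_mul, MulAut.mul_apply]

theorem restr_apply (N : Subgroup R) (hN : ∀ a, ∀ x ∈ N, φ a x ∈ N) (a : A) (x : N) :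
    ((restr φ N hN a x : N) : R) = φ a x := rfl

theorem card_fix_restr (N : Subgroup R) (hN : ∀ a, ∀ x ∈ N, φ a x ∈ N) (B : Subgroup A) :
    Nat.card (fix (restr φ N hN) B) = Nat.card (fix φ B ⊓ N : Subgroup R) := by
  refine Nat.card_congr ⟨fun x => ⟨x.1.1, ?_, x.1.2⟩, fun x => ⟨⟨x.1, x.2.2⟩, ?_⟩, fun x => rfl, fun x => rfl⟩
  · intro b hb
    have := congrArg Subtype.val (x.2 b hb)
    exact this
  · intro b hb
    apply Subtype.ext
    exact x.2.1 b hb

theorem fix_anti {B B' : Subgroup A} (h : B ≤ B') : fix φ B' ≤ fix φ B := fun _ hx b hb => hx b (h hb)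

theorem card_mul_relIndex' {G : Type*} [Group G] {H K : Subgroup G} (h : H ≤ K) :
    Nat.card H * H.relIndex K = Nat.card K := by
  have := relIndex_mul_relIndex ⊥ H K bot_le h
  rwa [relIndex_bot_left, relIndex_bot_left] at this

/-- If `B` acts trivially on `R / N`, then `|C_R(B)| = |R : N| |C_N(B)|`. -/
theorem card_fix_of_le_ker {p : ℕ} [Fact p.Prime] [Finite R] (N : Subgroup R) [N.Normal]
    (hN : ∀ a, ∀ x ∈ N, φ a x ∈ N) (hNp : ¬ p ∣ Nat.card N) {B : Subgroup A} (hB : IsPGroup p B)
    (hker : B ≤ ker φ N hN) :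
    Nat.card (fix φ B) = N.index * Nat.card (fix φ B ⊓ N : Subgroup R) := by
  have hsup : fix φ B ⊔ N = ⊤ := by
    rw [eq_top_iff]
    intro x _
    obtain ⟨y, hy, hxy⟩ := exists_fixed_in_coset φ hB hNp (fun b _ x hx => hN b x hx) x
      (fun b hb => hker hb x)
    have h1 : x = y * (x⁻¹ * y)⁻¹ := by group
    rw [h1]
    exact mul_mem_sup hy (N.inv_mem hxy)
  have h1 : (fix φ B ⊓ N).relIndex (fix φ B) = N.index := by
    rw [inf_relIndex_left, ← relIndex_sup_right, hsup, relIndex_top_right]
  rw [← h1, mul_comm]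
  exact (card_mul_relIndex' (inf_le_left : fix φ B ⊓ N ≤ fix φ B)).symm

/-- A maximal invariant proper subgroup `N` of a `q`-group: it is normal, contains the commutator subgroup. -/
theorem exists_max_inv {p q : ℕ} [Fact p.Prime] [Fact q.Prime] (hpq : p ≠ q)
    [Finite R] [Nontrivial R] (hR : IsPGroup q R) :
    ∃ (N : Subgroup R) (hN : ∀ a, ∀ x ∈ N, φ a x ∈ N), N.Normal ∧ N ≠ ⊤ ∧ commutator R ≤ N ∧
      (∀ x : R, x ^ p ∈ N → x ∈ N) ∧
      ∀ S : Subgroup R, (∀ a, ∀ x ∈ S, φ a x ∈ S) → N ≤ S → S = N ∨ S = ⊤ := by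
  obtain ⟨N, -, hNmax⟩ := Set.Finite.exists_le_maximal
    (s := {S : Subgroup R | S ≠ ⊤ ∧ ∀ a, ∀ x ∈ S, φ a x ∈ S}) (Set.toFinite _)
    (a := (⊥ : Subgroup R)) ⟨bot_ne_top, fun a x hx => by
      rw [mem_bot] at hx
      rw [hx, map_one]
      exact one_mem _⟩
  obtain ⟨⟨hNtop, hNinv⟩, hNmax'⟩ := hNmax
  have hmax : ∀ S : Subgroup R, (∀ a, ∀ x ∈ S, φ a x ∈ S) → N ≤ S → S = N ∨ S = ⊤ := by
    intro S hS hNS
    by_cases h : S = ⊤
    · exact Or.inr h
    · exact Or.inl (le_antisymm (hNmax' ⟨h, hS⟩ hNS) hNS)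
  have : Group.IsNilpotent R := hR.isNilpotent
  -- `N` is normal
  have hNn : N.Normal := by
    rw [← Subgroup.normalizer_eq_top_iff]
    have hlt : N < normalizer (N : Set R) :=
      Group.normalizerCondition_of_isNilpotent N (lt_top_iff_ne_top.2 hNtop)
    have hinv : ∀ a, ∀ x ∈ normalizer (N : Set R), φ a x ∈ normalizer (N : Set R) := by
      intro a x hx
      rw [Subgroup.mem_normalizer_iff] at hx ⊢
      intro y
      have h1 : y = φ a (φ a⁻¹ y) := by
        rw [← MulAut.mul_apply, ← map_mul, mul_inv_cancel, map_one, MulAut.one_apply]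
      constructor
      · intro hy
        rw [h1, ← map_inv, ← map_mul, ← map_mul]
        exact hNinv a _ ((hx _).1 (hNinv a⁻¹ y hy))
      · intro hy
        rw [h1]
        apply hNinv a
        rw [hx]
        have h2 := hNinv a⁻¹ _ hy
        rw [map_mul, map_mul, ← map_inv, ← MulAut.mul_apply, ← MulAut.mul_apply, ← map_mul,
          inv_mul_cancel, map_one, MulAut.one_apply, MulAut.one_apply] at h2
        exact h2
    rcases hmax _ hinv hlt.le with h | h
    · exact absurd h hlt.ne'
    · exact h
  -- the quotient is abelian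
  have hcomm : commutator R ≤ N := by
    have hinv : ∀ a, ∀ x ∈ N ⊔ commutator R, φ a x ∈ N ⊔ commutator R := by
      intro a x hx
      have h : N ⊔ commutator R ≤ (N ⊔ commutator R).comap (φ a).toMonoidHom := by
        refine sup_le (fun y hy => ?_) (fun y hy => ?_)
        · exact (le_sup_left : N ≤ N ⊔ commutator R) (hNinv a y hy)
        · apply (le_sup_right : commutator R ≤ N ⊔ commutator R)
          have h2 := (Subgroup.characteristic_iff_map_le.1
            (inferInstance : (commutator R).Characteristic)) (φ a)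
          exact h2 ⟨y, hy, rfl⟩
      exact h hx
    rcases hmax _ hinv le_sup_left with h | h
    · rw [← h]; exact le_sup_right
    · exfalso
      have : Nontrivial (R ⧸ N) := QuotientGroup.nontrivial_iff.2 hNtop
      have hlt := Group.IsSolvable.commutator_lt_top_of_nontrivial (R ⧸ N)
      apply hlt.ne
      have h3 : (commutator R).map (QuotientGroup.mk' N) = commutator (R ⧸ N) := by
        rw [commutator_def, commutator_def, Subgroup.map_commutator,
          ← MonoidHom.range_eq_map, QuotientGroup.range_mk']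
      rw [← h3]
      have h4 : (N ⊔ commutator R).map (QuotientGroup.mk' N) = ⊤ := by
        rw [h, ← MonoidHom.range_eq_map, QuotientGroup.range_mk']
      rw [Subgroup.map_sup] at h4
      have h5 : N.map (QuotientGroup.mk' N) = ⊥ := by
        rw [Subgroup.map_eq_bot_iff, QuotientGroup.ker_mk']
      rwa [h5, bot_sup_eq] at h4
  -- `p` is invertible on the quotient
  have hpc : Nat.Coprime p (Nat.card R) := by
    obtain ⟨n, hn⟩ := IsPGroup.iff_card.1 hR
    rw [hn]
    exact Nat.Coprime.pow_right n
      ((Nat.coprime_primes (Fact.out : p.Prime) (Fact.out : q.Prime)).2 hpq)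
  have hp : ∀ x : R, x ^ p ∈ N → x ∈ N := by
    intro x hx
    have h1 : (QuotientGroup.mk x : R ⧸ N) ^ p = 1 := by
      rw [← QuotientGroup.mk_pow, QuotientGroup.eq_one_iff]; exact hx
    have h2 : orderOf (QuotientGroup.mk x : R ⧸ N) ∣ p := orderOf_dvd_of_pow_eq_one h1
    have h3 : orderOf (QuotientGroup.mk x : R ⧸ N) ∣ Nat.card R :=
      (_root_.orderOf_dvd_natCard _).trans (Subgroup.card_quotient_dvd_card N)
    have h4 : orderOf (QuotientGroup.mk x : R ⧸ N) = 1 := Nat.eq_one_of_dvd_coprimes hpc h2 h3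
    rw [orderOf_eq_one_iff, QuotientGroup.eq_one_iff] at h4
    exact h4
  exact ⟨N, hNinv, hNn, hNtop, hcomm, hp, hmax⟩

/-- **Coprime inequality**, `q`-groups. -/
theorem card_mul_pow_le {p q : ℕ} [Fact p.Prime] [Fact q.Prime] (hpq : p ≠ q) [Finite A]
    (hA : ∀ a : A, a ^ p = 1) {ι : Type*} [Fintype ι] {k : ℕ} (hk : Fintype.card ι = k + 1)
    (X : ι → Subgroup A) (D : Subgroup A) (hX : ∀ B : Subgroup A, B.index = p → D ≤ B → ∃ i, X i = B) :
    ∀ (n : ℕ) (R : Type u) [Group R] [Finite R] (φ : A →* MulAut R), Nat.card R ≤ n → IsPGroup q R →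
      (∀ d ∈ D, φ d = 1) →
      Nat.card R * Nat.card (fix φ ⊤) ^ k ≤ ∏ i, Nat.card (fix φ (X i)) := by
  intro n
  induction n with
  | zero =>
    intro R _ _ φ hn
    exact absurd (Nat.le_zero.1 hn) Nat.card_pos.ne'
  | succ n ih =>
    intro R _ _ φ hn hR hD
    rcases subsingleton_or_nontrivial R with hs | hs
    · have h1 : Nat.card R = 1 := Nat.card_unique
      have h2 : Nat.card (fix φ ⊤) = 1 := Nat.card_unique
      rw [h1, h2, one_pow, mul_one]
      exact Nat.one_le_iff_ne_zero.2 (Finset.prod_ne_zero_iff.2 fun i _ => Nat.card_pos.ne')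
    · have hpA : IsPGroup p A := fun a => ⟨1, by rw [pow_one]; exact hA a⟩
      obtain ⟨N, hN, hNn, hNtop, hcomm, hp, hmax⟩ := exists_max_inv φ (p := p) hpq hR
      have hNp : ¬ p ∣ Nat.card N := by
        intro hd
        obtain ⟨m, hm⟩ := IsPGroup.iff_card.1 (hR.to_subgroup N)
        rw [hm] at hd
        exact hpq ((Nat.prime_dvd_prime_iff_eq (Fact.out : p.Prime) (Fact.out : q.Prime)).1
          ((Fact.out : p.Prime).dvd_of_dvd_pow hd))
      have hcard : Nat.card R = N.index * Nat.card N := (index_mul_card N).symm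
      have hi1 : N.index ≠ 1 := fun h => hNtop (index_eq_one.1 h)
      have hi0 : N.index ≠ 0 := index_ne_zero_of_finite
      have hlt : Nat.card N ≤ n := by
        have h1 : 2 * Nat.card N ≤ N.index * Nat.card N := Nat.mul_le_mul_right _ (by omega)
        have h2 : 0 < Nat.card N := Nat.card_pos
        omega
      have hI := ih N (restr φ N hN) hlt (hR.to_subgroup N) (fun d hd => by
        ext x
        rw [restr_apply, hD d hd]
        rfl)
      simp_rw [card_fix_restr] at hI
      by_cases hker : ker φ N hN = ⊤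
      · have e : ∀ B : Subgroup A, Nat.card (fix φ B) = N.index * Nat.card (fix φ B ⊓ N : Subgroup R) :=
          fun B => card_fix_of_le_ker φ N hN hNp (hpA.to_subgroup B) (by rw [hker]; exact le_top)
        simp_rw [e]
        rw [Finset.prod_mul_distrib, Finset.prod_const, Finset.card_univ, hk, hcard, mul_pow, pow_succ]
        calc N.index * Nat.card N * (N.index ^ k * Nat.card (fix φ ⊤ ⊓ N : Subgroup R) ^ k)
            = N.index ^ k * N.index * (Nat.card N * Nat.card (fix φ ⊤ ⊓ N : Subgroup R) ^ k) := by ring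
          _ ≤ _ := Nat.mul_le_mul_left _ hI
      · have : Nontrivial A := by
          by_contra hA1
          rw [not_nontrivial_iff_subsingleton] at hA1
          exact hker (Subsingleton.elim _ _)
        obtain ⟨B, hB, hBK⟩ := exists_hyperplane_le_ker φ hA N hN hNtop hcomm hp hmax
        have hBk : B = ker φ N hN := by
          have h1 := relIndex_mul_index hBK
          rw [hB] at h1
          have h2 : (ker φ N hN).index = p :=
            ((Nat.dvd_prime (Fact.out : p.Prime)).1 (Dvd.intro_left _ h1)).resolve_left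
              fun h => hker (index_eq_one.1 h)
          rw [h2] at h1
          have h3 : B.relIndex (ker φ N hN) = 1 :=
            Nat.eq_of_mul_eq_mul_right (Fact.out : p.Prime).pos (by rw [h1, one_mul])
          exact le_antisymm hBK (relIndex_eq_one.1 h3)
        obtain ⟨i, hi⟩ := hX B hB (by
          rw [hBk]
          intro d hd x
          rw [hD d hd, MulAut.one_apply, inv_mul_cancel]
          exact one_mem _)
        -- the fixed points of `A` lie in `N`
        have hfix : fix φ ⊤ ≤ N := by
          have hinv : ∀ a, ∀ x ∈ fix φ ⊤ ⊔ N, φ a x ∈ fix φ ⊤ ⊔ N := by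
            intro a x hx
            have h : fix φ ⊤ ⊔ N ≤ (fix φ ⊤ ⊔ N).comap (φ a).toMonoidHom := by
              refine sup_le (fun y hy => ?_) (fun y hy => ?_)
              · exact (le_sup_left : fix φ ⊤ ≤ fix φ ⊤ ⊔ N) (fix_invariant φ ⊤ a hy)
              · exact (le_sup_right : N ≤ fix φ ⊤ ⊔ N) (hN a y hy)
            exact h hx
          rcases hmax _ hinv le_sup_right with h | h
          · rw [← h]
            exact le_sup_left
          · exfalso
            apply hker
            rw [eq_top_iff]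
            intro a _ x
            have hx : x ∈ fix φ ⊤ ⊔ N := by
              rw [h]
              exact mem_top x
            obtain ⟨f, hf, m, hm, rfl⟩ := mem_sup_of_normal_right.1 hx
            have h1 : (f * m)⁻¹ * φ a (f * m) = m⁻¹ * φ a m := by
              rw [map_mul, hf a (mem_top a)]
              group
            rw [h1]
            exact N.mul_mem (N.inv_mem hm) (hN a m hm)
        rw [inf_eq_left.2 hfix] at hI
        have e : Nat.card (fix φ (X i)) = N.index * Nat.card (fix φ (X i) ⊓ N : Subgroup R) :=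
          card_fix_of_le_ker φ N hN hNp (hpA.to_subgroup _) (by rw [hi]; exact hBK)
        classical
        rw [← Finset.mul_prod_erase _ _ (Finset.mem_univ i)] at hI ⊢
        rw [e, hcard, mul_assoc, mul_assoc]
        refine Nat.mul_le_mul_left _ (hI.trans (Nat.mul_le_mul_left _ ?_))
        exact Finset.prod_le_prod' fun j _ => card_le_of_le inf_le_left

end Abs

section Amb

variable {G : Type u} [Group G]

/-- **Coprime inequality** (one half of the formula of Brauer and Wielandt). -/
theorem brauer {p : ℕ} [Fact p.Prime] [Finite G] {P H A : Subgroup G} (hPc : IsMulCommutative P)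
    (hPe : ∀ x ∈ P, x ^ p = 1) (hPH : P ≤ normalizer (H : Set G)) (hH : ¬ p ∣ Nat.card H) (hAP : A ≤ P)
    (hA : ∀ a ∈ A, ∀ h ∈ H, a * h = h * a) {ι : Type*} [Fintype ι] {k : ℕ} (hk : Fintype.card ι = k + 1)
    (X : ι → Subgroup G) (hXP : ∀ i, X i ≤ P)
    (hX : ∀ B : Subgroup G, B ≤ P → A ≤ B → B.relIndex P = p → ∃ i, X i = B) :
    Nat.card H * Nat.card (H ⊓ centralizer (P : Set G) : Subgroup G) ^ k ≤
      ∏ i, Nat.card (H ⊓ centralizer (X i : Set G) : Subgroup G) := by
  have hpP : IsPGroup p P := fun a => ⟨1, by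
    rw [pow_one]
    exact Subtype.ext (hPe a a.2)⟩
  have hcop : (Nat.card P).Coprime (Nat.card H) := by
    obtain ⟨m, hm⟩ := IsPGroup.iff_card.1 hpP
    rw [hm]
    exact Nat.Coprime.pow_left m (((Fact.out : p.Prime).coprime_iff_not_dvd).2 hH)
  have n1 : Nat.card H * Nat.card (H ⊓ centralizer (P : Set G) : Subgroup G) ^ k ≠ 0 :=
    mul_ne_zero Nat.card_pos.ne' (pow_ne_zero _ Nat.card_pos.ne')
  have n2 : ∏ i, Nat.card (H ⊓ centralizer (X i : Set G) : Subgroup G) ≠ 0 :=
    Finset.prod_ne_zero_iff.2 fun i _ => Nat.card_pos.ne'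
  refine Nat.le_of_dvd (Nat.pos_of_ne_zero n2) ((Nat.factorization_le_iff_dvd n1 n2).1 fun q => ?_)
  by_cases hq : q.Prime
  swap
  · rw [Nat.factorization_eq_zero_of_not_prime _ hq]
    exact Nat.zero_le _
  have : Fact q.Prime := ⟨hq⟩
  rw [Nat.factorization_mul Nat.card_pos.ne' (pow_ne_zero _ Nat.card_pos.ne'), Nat.factorization_pow,
    Finsupp.add_apply, Finsupp.smul_apply, smul_eq_mul, Nat.factorization_prod fun i _ => Nat.card_pos.ne',
    Finset.sum_apply']
  by_cases hpq : p = q
  · subst hpq
    rw [Nat.factorization_eq_zero_of_not_dvd hH, Nat.factorization_eq_zero_of_not_dvd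
      fun h => hH (h.trans (card_dvd_of_le inf_le_left)), mul_zero, add_zero]
    exact Nat.zero_le _
  -- the invariant Sylow subgroup
  obtain ⟨T⟩ : Nonempty (Sylow q (H ⊓ centralizer (P : Set G) : Subgroup G)) := inferInstance
  have hTH : (T : Subgroup (H ⊓ centralizer (P : Set G) : Subgroup G)).map
      (H ⊓ centralizer (P : Set G)).subtype ≤ H ⊓ centralizer (P : Set G) := map_subtype_le _
  obtain ⟨R, hTR, hPR⟩ := Cfsg.Agent.S0025.result P H hPH hcop (Or.inl (by
      have : Group.IsNilpotent P := hpP.isNilpotent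
      infer_instance)) q
    ((T : Subgroup (H ⊓ centralizer (P : Set G) : Subgroup G)).map (H ⊓ centralizer (P : Set G)).subtype)
    (hTH.trans inf_le_left) (T.isPGroup'.map _) ((le_centralizer_iff.1 (hTH.trans inf_le_right)).trans
      (centralizer_le_normalizer _))
  set R' : Subgroup G := (R : Subgroup H).map H.subtype with hR'
  have hRH : R' ≤ H := map_subtype_le _
  have hRq : IsPGroup q R' := R.isPGroup'.map _
  have hRc : Nat.card R' = q ^ (Nat.card H).factorization q := by
    rw [hR', card_map_of_injective H.subtype_injective]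
    exact R.card_eq_multiplicity
  have hTc : q ^ (Nat.card (H ⊓ centralizer (P : Set G) : Subgroup G)).factorization q ≤
      Nat.card (R' ⊓ centralizer (P : Set G) : Subgroup G) := by
    rw [← T.card_eq_multiplicity, ← card_map_of_injective (H ⊓ centralizer (P : Set G)).subtype_injective]
    exact card_le_of_le (le_inf hTR (hTH.trans inf_le_right))
  have hXc : ∀ i, Nat.card (R' ⊓ centralizer (X i : Set G) : Subgroup G) ≤
      q ^ (Nat.card (H ⊓ centralizer (X i : Set G) : Subgroup G)).factorization q := by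
    intro i
    obtain ⟨m, hm⟩ := IsPGroup.iff_card.1 (hRq.to_le (inf_le_left : R' ⊓ centralizer (X i : Set G) ≤ R'))
    rw [hm]
    refine Nat.pow_le_pow_right hq.pos ((hq.pow_dvd_iff_le_factorization Nat.card_pos.ne').1 ?_)
    rw [← hm]
    exact card_dvd_of_le (inf_le_inf_right _ hRH)
  have key : Nat.card R' * Nat.card (R' ⊓ centralizer (P : Set G) : Subgroup G) ^ k ≤
      ∏ i, Nat.card (R' ⊓ centralizer (X i : Set G) : Subgroup G) := by
    let cP : CommGroup P :=
      { (inferInstance : Group P) with mul_comm := fun x y => hPc.is_comm.comm x y }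
    have hmap : ∀ B : Subgroup G, B ≤ P → (B.subgroupOf P).map P.subtype = B := fun B hB => by
      rw [subgroupOf_map_subtype, inf_eq_left.2 hB]
    have hcard : ∀ B : Subgroup G, B ≤ P → Nat.card (fix (conjHom hPR) (B.subgroupOf P)) =
        Nat.card (R' ⊓ centralizer (B : Set G) : Subgroup G) := by
      intro B hB
      refine Nat.card_congr ⟨fun x => ⟨x.1.1, x.1.2, ?_⟩, fun x => ⟨⟨x.1, x.2.1⟩, ?_⟩, fun x => rfl, fun x => rfl⟩
      · intro b hb
        have h5 := congrArg Subtype.val (x.2 ⟨b, hB hb⟩ hb)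
        rw [conjHom_apply] at h5
        exact mul_inv_eq_iff_eq_mul.1 h5
      · intro b hb
        apply Subtype.ext
        rw [conjHom_apply]
        exact mul_inv_eq_iff_eq_mul.2 (x.2.2 b hb)
    have h := card_mul_pow_le (A := P) hpq (fun a => Subtype.ext (hPe a a.2)) hk
      (fun i => (X i).subgroupOf P) (A.subgroupOf P) (fun B hB hDB => by
        have h1 : B.map P.subtype ≤ P := map_subtype_le B
        obtain ⟨i, hi⟩ := hX (B.map P.subtype) h1 (by
          rw [← hmap A hAP]
          exact map_mono hDB) (by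
          rw [relIndex, subgroupOf, comap_map_eq_self_of_injective P.subtype_injective]
          exact hB)
        refine ⟨i, ?_⟩
        rw [hi, subgroupOf, comap_map_eq_self_of_injective P.subtype_injective]) _ R' (conjHom hPR) le_rfl hRq
      (fun d hd => by
        ext x
        rw [conjHom_apply, hA d hd x (hRH x.2), mul_inv_cancel_right, MulAut.one_apply])
    have e : (⊤ : Subgroup P) = P.subgroupOf P := (subgroupOf_self P).symm
    rw [e, hcard P le_rfl] at h
    refine h.trans (Finset.prod_le_prod' fun i _ => ?_)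
    rw [hcard _ (hXP i)]
  rw [← Nat.pow_le_pow_iff_right hq.one_lt, pow_add, mul_comm k, pow_mul, ← hRc,
    ← Finset.prod_pow_eq_pow_sum]
  calc _ ≤ Nat.card R' * Nat.card (R' ⊓ centralizer (P : Set G) : Subgroup G) ^ k :=
        Nat.mul_le_mul_left _ (Nat.pow_le_pow_left hTc k)
    _ ≤ _ := key.trans (Finset.prod_le_prod' fun i _ => hXc i)

end Amb

end Cfsg.Agent.H244.PSq
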