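import Cfsg.Agent.H244.PSq.Brauer
import Cfsg.Agent.H696.PSq.Defs

/-!
# The number of Sylow subgroups (TEAM PSQ, S4844, piece PS-3b)
-/

set_option autoImplicit false

namespace Cfsg.Agent.H244.PSq

open Subgroup Cfsg.Agent.H696.PSq

universe u

section Gen

variable {p : ℕ} {G : Type u} [Group G]

theorem mem_smul_sylow (g : G) (P : Sylow p G) (x : G) :
    x ∈ ((g • P : Sylow p G) : Subgroup G) ↔ g⁻¹ * x * g ∈ (P : Subgroup G) := by
  constructor
  · rintro ⟨y, hy, rfl⟩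
    have e : g⁻¹ * (MulAut.conj g) y * g = y := by simp [mul_assoc]
    show g⁻¹ * (MulAut.conj g) y * g ∈ (P : Subgroup G)
    rw [e]
    exact hy
  · intro h
    exact ⟨g⁻¹ * x * g, h, by simp [mul_assoc]⟩

/-- `H` has order prime to `p`, `X` is a `p`-subgroup: they meet trivially. -/
theorem inf_eq_bot [Finite G] {H X : Subgroup G} {m : ℕ} (hp : p.Prime) (hH : ¬ p ∣ Nat.card H)
    (hX : Nat.card X = p ^ m) : H ⊓ X = ⊥ := by
  rw [← card_eq_one]
  refine Nat.eq_one_of_dvd_coprimes (?_ : (Nat.card H).Coprime (p ^ m)) (card_dvd_of_le inf_le_left)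
    (hX ▸ card_dvd_of_le inf_le_right)
  exact (Nat.Coprime.pow_left m ((hp.coprime_iff_not_dvd).2 hH)).symm

/-- An element of the normal `p'`-subgroup `H` which normalizes the `p`-subgroup `X` centralizes it. -/
theorem comm_of_norm [Finite G] {H X : Subgroup G} [H.Normal] {m : ℕ} (hp : p.Prime) (hH : ¬ p ∣ Nat.card H)
    (hX : Nat.card X = p ^ m) {h : G} (hh : h ∈ H) (hn : ∀ x ∈ X, h * x * h⁻¹ ∈ X) {x : G} (hx : x ∈ X) :
    x * h = h * x := by
  have h1 : h * x * h⁻¹ * x⁻¹ ∈ H ⊓ X := by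
    refine ⟨?_, X.mul_mem (hn x hx) (X.inv_mem hx)⟩
    have h2 : x * h⁻¹ * x⁻¹ ∈ H := Normal.conj_mem inferInstance _ (H.inv_mem hh) x
    have h3 := H.mul_mem hh h2
    rwa [← mul_assoc, ← mul_assoc] at h3
  rw [inf_eq_bot hp hH hX, mem_bot] at h1
  have h4 := mul_inv_eq_one.1 h1
  rw [mul_inv_eq_iff_eq_mul] at h4
  exact h4.symm

/-- The Sylow subgroups of the centralizer of `X`: at least `|C_H(X) : C_H(P)|`. -/
theorem card_cent_le [Finite G] [Fact p.Prime] {H X : Subgroup G} [H.Normal] (hH : ¬ p ∣ Nat.card H)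
    (P : Sylow p G) (hPX : (P : Subgroup G) ≤ centralizer (X : Set G)) :
    Nat.card (H ⊓ centralizer (X : Set G) : Subgroup G) ≤
      Nat.card (H ⊓ centralizer ((P : Subgroup G) : Set G) : Subgroup G) * cX p X := by
  classical
  let K : Subgroup G := centralizer (X : Set G)
  let ψ : (H ⊓ centralizer (X : Set G) : Subgroup G) → Sylow p K := fun h => (⟨h.1, h.2.2⟩ : K) • P.subtype hPX
  have key : ∀ h h' : (H ⊓ centralizer (X : Set G) : Subgroup G), ψ h = ψ h' →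
      (h' : G)⁻¹ * h ∈ H ⊓ centralizer ((P : Subgroup G) : Set G) := by
    intro h h' e
    have e1 : ((⟨h'.1, h'.2.2⟩ : K)⁻¹ * ⟨h.1, h.2.2⟩) • P.subtype hPX = P.subtype hPX := by
      rw [mul_smul]
      have e2 : (⟨h.1, h.2.2⟩ : K) • P.subtype hPX = (⟨h'.1, h'.2.2⟩ : K) • P.subtype hPX := e
      rw [e2, inv_smul_smul]
    rw [Sylow.smul_subtype] at e1
    have e3 : ((h' : G)⁻¹ * (h : G)) • P = P := Sylow.subtype_injective e1
    have hh : (h' : G)⁻¹ * h ∈ H := H.mul_mem (H.inv_mem h'.2.1) h.2.1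
    refine ⟨hh, fun x hx => ?_⟩
    refine comm_of_norm (Fact.out : p.Prime) hH P.card_eq_multiplicity hh (fun y hy => ?_) hx
    have h4 : (h' : G)⁻¹ * h * y * ((h' : G)⁻¹ * h)⁻¹ ∈ ((((h' : G)⁻¹ * (h : G)) • P : Sylow p G) : Subgroup G) := by
      rw [mem_smul_sylow]
      have e4 : ((h' : G)⁻¹ * h)⁻¹ * ((h' : G)⁻¹ * h * y * ((h' : G)⁻¹ * h)⁻¹) * ((h' : G)⁻¹ * h) = y := by group
      rw [e4]
      exact hy
    rwa [e3] at h4
  let r : Sylow p K → (H ⊓ centralizer (X : Set G) : Subgroup G) := fun Q =>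
    if e : ∃ h, ψ h = Q then e.choose else 1
  have hr : ∀ h, ψ h = ψ (r (ψ h)) := by
    intro h
    have e : ∃ h', ψ h' = ψ h := ⟨h, rfl⟩
    show ψ h = ψ (if e : ∃ h', ψ h' = ψ h then e.choose else 1)
    rw [dif_pos e]
    exact e.choose_spec.symm
  let Φ : (H ⊓ centralizer (X : Set G) : Subgroup G) →
      (H ⊓ centralizer ((P : Subgroup G) : Set G) : Subgroup G) × Sylow p K :=
    fun h => (⟨(r (ψ h) : G)⁻¹ * h, key h _ (hr h)⟩, ψ h)
  have hΦ : Function.Injective Φ := by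
    intro h h' e
    have e1 : ψ h = ψ h' := congrArg Prod.snd e
    have e2 : (r (ψ h) : G)⁻¹ * h = (r (ψ h') : G)⁻¹ * h' := congrArg Subtype.val (congrArg Prod.fst e)
    rw [e1] at e2
    exact Subtype.ext (mul_left_cancel e2)
  have := Nat.card_le_card_of_injective Φ hΦ
  rwa [Nat.card_prod] at this

/-- Sylow's theorem in the normal subgroup `N`, and in `H X₀`. -/
theorem exists_smul [Finite G] [Fact p.Prime] (P : Sylow p G) {m : ℕ} (N H X : Subgroup G) [N.Normal]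
    (hPN : (P : Subgroup G) ≤ N) [H.Normal] (hHN : H ≤ N) (hH : ¬ p ∣ Nat.card H) (hXP : X ≤ P)
    (hXc : Nat.card X = p ^ m) (hX : ∀ g ∈ N, ∀ x ∈ X, g * x * g⁻¹ ∈ H ⊔ X) (S : Sylow p G) :
    ∃ h : H, X ≤ (((h : G)⁻¹ • S : Sylow p G) : Subgroup G) := by
  have hSN : (S : Subgroup G) ≤ N := by
    obtain ⟨g, rfl⟩ := MulAction.exists_smul_eq G P S
    intro x hx
    rw [mem_smul_sylow] at hx
    have h1 := Normal.conj_mem (inferInstance : N.Normal) _ (hPN hx) g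
    have e : g * (g⁻¹ * x * g) * g⁻¹ = x := by group
    rwa [e] at h1
  obtain ⟨n, hn⟩ := MulAction.exists_smul_eq N (P.subtype hPN) (S.subtype hSN)
  rw [Sylow.smul_subtype] at hn
  have hn' : (n : G) • P = S := Sylow.subtype_injective hn
  -- `X` and its conjugate are Sylow subgroups of `H X`
  have hcardM : Nat.card (H ⊔ X : Subgroup G) = Nat.card H * p ^ m := by
    have h1 := card_mul_relIndex' (le_sup_left : H ≤ H ⊔ X)
    rw [sup_comm, relIndex_sup_right, ← inf_relIndex_right, inf_eq_bot (Fact.out : p.Prime) hH hXc,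
      relIndex_bot_left, hXc, sup_comm] at h1
    exact h1.symm
  have hfac : (Nat.card (H ⊔ X : Subgroup G)).factorization p = m := by
    rw [hcardM, Nat.factorization_mul Nat.card_pos.ne' (pow_ne_zero _ (Fact.out : p.Prime).ne_zero),
      Finsupp.add_apply, Nat.factorization_eq_zero_of_not_dvd hH, zero_add,
      (Fact.out : p.Prime).factorization_pow, Finsupp.single_eq_same]
  let Y : Subgroup G := X.map (MulAut.conj (n : G)).toMonoidHom
  have hYM : Y ≤ H ⊔ X := by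
    rintro _ ⟨x, hx, rfl⟩
    exact hX n n.2 x hx
  have hYc : Nat.card Y = p ^ m := by
    rw [← hXc]
    exact card_map_of_injective (MulAut.conj (n : G)).injective
  have c1 : Nat.card (X.subgroupOf (H ⊔ X)) = p ^ (Nat.card (H ⊔ X : Subgroup G)).factorization p := by
    rw [hfac, ← hXc]
    exact Nat.card_congr (subgroupOfEquivOfLe le_sup_right).toEquiv
  have c2 : Nat.card (Y.subgroupOf (H ⊔ X)) = p ^ (Nat.card (H ⊔ X : Subgroup G)).factorization p := by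
    rw [hfac, ← hYc]
    exact Nat.card_congr (subgroupOfEquivOfLe hYM).toEquiv
  obtain ⟨t, ht⟩ := MulAction.exists_smul_eq (H ⊔ X : Subgroup G) (Sylow.ofCard _ c1) (Sylow.ofCard _ c2)
  obtain ⟨h, hh, x', hx', htx⟩ := mem_sup_of_normal_left.1 t.2
  refine ⟨⟨h, hh⟩, fun z hz => ?_⟩
  rw [mem_smul_sylow, inv_inv]
  have hw : x'⁻¹ * z * x' ∈ X := X.mul_mem (X.mul_mem (X.inv_mem hx') hz) hx'
  have hw1 : t * ⟨x'⁻¹ * z * x', (le_sup_right : X ≤ H ⊔ X) hw⟩ * t⁻¹ ∈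
      ((t • Sylow.ofCard _ c1 : Sylow p (H ⊔ X : Subgroup G)) : Subgroup (H ⊔ X : Subgroup G)) := by
    rw [mem_smul_sylow]
    have e : t⁻¹ * (t * (⟨x'⁻¹ * z * x', (le_sup_right : X ≤ H ⊔ X) hw⟩ : (H ⊔ X : Subgroup G)) * t⁻¹) * t =
      ⟨x'⁻¹ * z * x', (le_sup_right : X ≤ H ⊔ X) hw⟩ := by group
    rw [e]
    exact hw
  rw [ht] at hw1
  have hw2 : (t : G) * (x'⁻¹ * z * x') * (t : G)⁻¹ ∈ Y := hw1
  have e2 : (t : G) * (x'⁻¹ * z * x') * (t : G)⁻¹ = h * z * h⁻¹ := by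
    rw [← htx]
    group
  rw [e2] at hw2
  obtain ⟨x, hx, hx2⟩ := hw2
  show h * z * h⁻¹ ∈ (S : Subgroup G)
  rw [← hx2, ← hn', mem_smul_sylow]
  have e3 : (n : G)⁻¹ * (MulAut.conj (n : G)).toMonoidHom x * n = x := by
    show (n : G)⁻¹ * (n * x * (n : G)⁻¹) * n = x
    group
  rw [e3]
  exact hXP hx

theorem card_sylow_mul_le [Finite G] [Fact p.Prime] (P : Sylow p G) (hPc : IsMulCommutative (P : Subgroup G))
    {m : ℕ} (N H X : Subgroup G) [N.Normal]
    (hPN : (P : Subgroup G) ≤ N) [H.Normal] (hHN : H ≤ N) (hH : ¬ p ∣ Nat.card H) (hXP : X ≤ P)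
    (hXc : Nat.card X = p ^ m) (hX : ∀ g ∈ N, ∀ x ∈ X, g * x * g⁻¹ ∈ H ⊔ X) :
    Nat.card (Sylow p G) * Nat.card (H ⊓ centralizer (X : Set G) : Subgroup G) ≤ Nat.card H * cX p X := by
  choose f hf using exists_smul P N H X hPN hHN hH hXP hXc hX
  have hcomm : ∀ T : Sylow p G, (T : Subgroup G) ≤ centralizer ((T : Subgroup G) : Set G) := by
    intro T x hx y hy
    obtain ⟨g, rfl⟩ := MulAction.exists_smul_eq G P T
    rw [mem_smul_sylow] at hx
    have hy' := (mem_smul_sylow g P y).1 hy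
    have h1 : (g⁻¹ * y * g) * (g⁻¹ * x * g) = (g⁻¹ * x * g) * (g⁻¹ * y * g) :=
      congrArg Subtype.val (hPc.is_comm.comm ⟨_, hy'⟩ ⟨_, hx⟩)
    have h2 : g * ((g⁻¹ * y * g) * (g⁻¹ * x * g)) * g⁻¹ = g * ((g⁻¹ * x * g) * (g⁻¹ * y * g)) * g⁻¹ := by rw [h1]
    have e1 : g * ((g⁻¹ * y * g) * (g⁻¹ * x * g)) * g⁻¹ = y * x := by group
    have e2 : g * ((g⁻¹ * x * g) * (g⁻¹ * y * g)) * g⁻¹ = x * y := by group
    rw [← e1, ← e2, h2]
  let 𝒯 := {T : Sylow p G // X ≤ (T : Subgroup G)}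
  have hT : Nat.card 𝒯 ≤ cX p X := by
    refine Nat.card_le_card_of_injective
      (fun T : 𝒯 => T.1.subtype ((hcomm T.1).trans (centralizer_le T.2))) fun T T' e => ?_
    exact Subtype.ext (Sylow.subtype_injective e)
  let Φ : Sylow p G × (H ⊓ centralizer (X : Set G) : Subgroup G) → H × 𝒯 := fun a =>
    (f a.1 * ⟨a.2.1, a.2.2.1⟩, ⟨(a.2 : G)⁻¹ • ((f a.1 : G)⁻¹ • a.1), fun x hx => by
      rw [mem_smul_sylow, inv_inv]
      have e : (a.2 : G) * x * (a.2 : G)⁻¹ = x := mul_inv_eq_iff_eq_mul.2 (a.2.2.2 x hx).symm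
      rw [e]
      exact hf a.1 hx⟩)
  have hΦ : Function.Injective Φ := by
    rintro ⟨S, c⟩ ⟨S', c'⟩ e
    have e1 : (f S : G) * c = f S' * c' := congrArg Subtype.val (congrArg Prod.fst e)
    have e2 : (c : G)⁻¹ • ((f S : G)⁻¹ • S) = (c' : G)⁻¹ • ((f S' : G)⁻¹ • S') :=
      congrArg Subtype.val (congrArg Prod.snd e)
    have e3 : S = S' := by
      have h1 : ((f S : G) * c) • ((c : G)⁻¹ • ((f S : G)⁻¹ • S)) = S := by
        rw [mul_smul, smul_inv_smul, smul_inv_smul]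
      have h2 : ((f S' : G) * c') • ((c' : G)⁻¹ • ((f S' : G)⁻¹ • S')) = S' := by
        rw [mul_smul, smul_inv_smul, smul_inv_smul]
      rw [← h1, ← h2, e2, e1]
    subst e3
    rw [Subtype.ext (mul_left_cancel e1)]
  have := Nat.card_le_card_of_injective Φ hΦ
  rw [Nat.card_prod, Nat.card_prod] at this
  exact this.trans (Nat.mul_le_mul_left _ hT)

end Gen

theorem kappa {p : ℕ} [Fact p.Prime] {C : Type u} [Group C] [Finite C] {A : Subgroup C} (hA : A ≤ center C)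
    (hAc : Nat.card A = p) (P : Sylow p C) (hPc : IsMulCommutative (P : Subgroup C)) (hPe : ∀ x ∈ (P : Subgroup C), x ^ p = 1)
    (h3 : (Nat.card C).factorization p = 3) (N H : Subgroup C) [N.Normal] (hPN : (P : Subgroup C) ≤ N) [H.Normal]
    (hHN : H ≤ N) (hH : ¬ p ∣ Nat.card H) (X₀ : Dir p (P : Subgroup C) A)
    (hX : ∀ g ∈ N, ∀ x ∈ (X₀ : Subgroup C), g * x * g⁻¹ ∈ H ⊔ (X₀ : Subgroup C)) :
    Nat.card (Sylow p C) ≤ ∏ᶠ X : Dir p (P : Subgroup C) A, cX p (X : Subgroup C) := by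
  classical
  have : Fintype (Dir p (P : Subgroup C) A) := Fintype.ofFinite _
  have hPcard : Nat.card (P : Subgroup C) = p ^ 3 := by rw [← h3]; exact P.card_eq_multiplicity
  obtain ⟨X₀, hX₀⟩ := X₀
  have hAP : A ≤ P := hX₀.2.2.trans hX₀.1
  obtain ⟨k, hk⟩ : ∃ k, Fintype.card (Dir p (P : Subgroup C) A) = k + 1 :=
    Nat.exists_eq_succ_of_ne_zero (Fintype.card_pos_iff.2 ⟨⟨X₀, hX₀⟩⟩).ne'
  have hb := brauer (p := p) (P := (P : Subgroup C)) (H := H) (A := A) hPc hPe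
    (le_normalizer_of_normal) hH hAP (fun a ha h _ => (mem_center_iff.1 (hA ha) h).symm) hk
    (fun X : Dir p (P : Subgroup C) A => (X : Subgroup C)) (fun X => X.2.1) (fun B hBP hAB hB => by
      refine ⟨⟨B, hBP, ?_, hAB⟩, rfl⟩
      have h1 := card_mul_relIndex' hBP
      rw [hB, hPcard, pow_succ] at h1
      exact Nat.eq_of_mul_eq_mul_right (Fact.out : p.Prime).pos h1)
  have hPc' : (P : Subgroup C) ≤ centralizer ((P : Subgroup C) : Set C) :=
    le_centralizer_iff_isMulCommutative.2 hPc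
  have h4 : ∀ X : Dir p (P : Subgroup C) A, (P : Subgroup C) ≤ centralizer ((X : Subgroup C) : Set C) :=
    fun X => hPc'.trans (centralizer_le X.2.1)
  have h5 := card_sylow_mul_le P hPc N H X₀ hPN hHN hH hX₀.1 hX₀.2.1 hX
  rw [finprod_eq_prod_of_fintype]
  rw [← Finset.mul_prod_erase _ _ (Finset.mem_univ (⟨X₀, hX₀⟩ : Dir p (P : Subgroup C) A))] at hb ⊢
  have h6 : ∏ X ∈ Finset.univ.erase (⟨X₀, hX₀⟩ : Dir p (P : Subgroup C) A),
      Nat.card (H ⊓ centralizer ((X : Subgroup C) : Set C) : Subgroup C) ≤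
      Nat.card (H ⊓ centralizer ((P : Subgroup C) : Set C) : Subgroup C) ^ k *
        ∏ X ∈ Finset.univ.erase (⟨X₀, hX₀⟩ : Dir p (P : Subgroup C) A), cX p (X : Subgroup C) := by
    have e : (Finset.univ.erase (⟨X₀, hX₀⟩ : Dir p (P : Subgroup C) A)).card = k := by
      rw [Finset.card_erase_of_mem (Finset.mem_univ _), Finset.card_univ, hk]
      rfl
    rw [← e, ← Finset.prod_const, ← Finset.prod_mul_distrib]
    exact Finset.prod_le_prod' fun X _ => card_cent_le hH P (h4 X)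
  set F := ∏ X ∈ Finset.univ.erase (⟨X₀, hX₀⟩ : Dir p (P : Subgroup C) A), cX p (X : Subgroup C)
  have h7 : Nat.card H * Nat.card (H ⊓ centralizer ((P : Subgroup C) : Set C) : Subgroup C) ^ k ≤
      Nat.card (H ⊓ centralizer (X₀ : Set C) : Subgroup C) * F *
        Nat.card (H ⊓ centralizer ((P : Subgroup C) : Set C) : Subgroup C) ^ k := by
    refine hb.trans ((Nat.mul_le_mul_left _ h6).trans (le_of_eq ?_))
    ring
  have h8 := Nat.le_of_mul_le_mul_right h7 (pow_pos Nat.card_pos k)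
  have h9 : Nat.card (Sylow p C) * Nat.card (H ⊓ centralizer (X₀ : Set C) : Subgroup C) ≤
      cX p X₀ * F * Nat.card (H ⊓ centralizer (X₀ : Set C) : Subgroup C) := by
    refine h5.trans ((Nat.mul_le_mul_right _ h8).trans (le_of_eq ?_))
    ring
  exact Nat.le_of_mul_le_mul_right h9 Nat.card_pos

end Cfsg.Agent.H244.PSq
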